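import Cfsg.Agent.KInv.XsNum
import Cfsg.Agent.Known.LawSL2
import Cfsg.Agent.Class.HermBasis
import Cfsg.Agent.S0277

/-!
# Groups with abelian Sylow `p`-subgroups: matrix groups of small degree
-/

set_option autoImplicit false

namespace Cfsg.Lib.KInv.Xs

open Cfsg.Lib.Known.SylH Cfsg.Lib.Known.Law Cfsg.Lib.Class Matrix Module

/-- All `p`-subgroups are abelian. -/
def AbP (p : ℕ) (H : Type*) [Group H] : Prop :=
  ∀ P : Subgroup H, IsPGroup p P → IsMulCommutative P

theorem AbP_eq_1' : type_of% @AbP.eq_1 := @AbP.eq_1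

variable {p : ℕ} [hp : Fact p.Prime]

section general

variable {A H : Type*} [Group A] [Group H]

omit hp in
theorem AbP.of_emb (h : AbP p H) (e : Emb A H) : AbP p A := fun P hP => by
  obtain ⟨φ, hφ⟩ := e
  have := h _ (hP.map φ)
  exact ⟨⟨fun a b => Subtype.ext (hφ (by
    simpa using congrArg Subtype.val (mul_comm' (φ.subgroupMap P a) (φ.subgroupMap P b))))⟩⟩

omit hp in
theorem abP_of_comm (h : ∀ a b : H, a * b = b * a) : AbP p H := fun _ _ =>
  ⟨⟨fun a b => Subtype.ext (h a b)⟩⟩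

theorem abP_of_sylow [Finite H] (S : Sylow p H) (h : IsMulCommutative (S : Subgroup H)) :
    AbP p H := fun P hP => by
  obtain ⟨T, hT⟩ := hP.exists_le_sylow
  let f := (Sylow.equiv T S).toMonoidHom.comp (Subgroup.inclusion hT)
  exact ⟨⟨fun a b => ((Sylow.equiv T S).injective.comp (Subgroup.inclusion_injective hT))
    (show f (a * b) = f (b * a) by rw [map_mul, map_mul, mul_comm'])⟩⟩

theorem AbP.of_surj [Finite A] (h : AbP p A) (f : A →* H) (hf : Function.Surjective f) :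
    AbP p H := by
  have := Finite.of_surjective f hf
  obtain ⟨S⟩ : Nonempty (Sylow p A) := inferInstance
  have := h S S.isPGroup'
  exact abP_of_sylow (S.mapSurjective hf) (inferInstanceAs (IsMulCommutative (S.1.map f)))

theorem AbP.quot [Finite A] (h : AbP p A) (N : Subgroup A) [N.Normal] : AbP p (A ⧸ N) :=
  h.of_surj _ (QuotientGroup.mk'_surjective N)

theorem AbP.up [Finite H] (h : AbP p A) (e : Emb A H)
    (hv : padicValNat p (Nat.card H) ≤ padicValNat p (Nat.card A)) : AbP p H := by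
  obtain ⟨φ, hφ⟩ := e
  have := Finite.of_injective φ hφ
  obtain ⟨S⟩ : Nonempty (Sylow p A) := inferInstance
  have := h S S.isPGroup'
  refine abP_of_sylow (Sylow.ofCard (S.1.map φ) ?_) (inferInstance : IsMulCommutative (S.1.map φ))
  rw [Subgroup.card_map_of_injective hφ, S.card_eq_multiplicity, Nat.factorization_def _ hp.out,
    Nat.factorization_def _ hp.out,
    le_antisymm hv (val_le_of_dvd (Subgroup.card_dvd_of_injective φ hφ) Nat.card_pos.ne')]

/-- The Sylow `p`-subgroups are non-abelian of order `p ^ 3`. -/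
def Bad (p : ℕ) (H : Type*) [Group H] : Prop := padicValNat p (Nat.card H) = 3 ∧ ¬ AbP p H

theorem Bad_eq_1' : type_of% @Bad.eq_1 := @Bad.eq_1

omit hp in
theorem Bad.congr (h : Bad p A) (e : A ≃* H) : Bad p H :=
  ⟨Nat.card_congr e.toEquiv ▸ h.1, fun k => h.2 (k.of_emb (.of_equiv e))⟩

end general

theorem val_mul_left {y c : ℕ} (hy : ¬ p ∣ y) (hc : c ≠ 0) :
    padicValNat p (y * c) = padicValNat p c := by
  rw [padicValNat.mul (by rintro rfl; simp at hy) hc, padicValNat.eq_zero_of_not_dvd hy, zero_add]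

omit hp in
theorem cr_nat {q : ℕ} (h2 : p ≠ 2) (hq : ¬ p ∣ q) (h : 2 ≤ q) : Cr p q :=
  ⟨h2, mt Int.natCast_dvd_natCast.1 hq, h⟩

omit hp in
theorem Cr.neg {x : ℤ} (h : Cr p x) : Cr p (-x) :=
  ⟨h.odd, mt dvd_neg.1 h.nd, by rw [Int.natAbs_neg]; exact h.two⟩

theorem Cr.not_dvd_pow {q : ℕ} (h : Cr p q) (k : ℕ) : ¬ p ∣ q ^ k := fun e =>
  h.nd (Int.natCast_dvd_natCast.2 (hp.out.dvd_of_dvd_pow e))

theorem not_dvd_two (h : p ≠ 2) : ¬ p ∣ 2 := mt (Nat.prime_dvd_prime_iff_eq hp.out Nat.prime_two).1 h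

variable {F : Type*} [Field F] [Fintype F] {q : ℕ}

omit hp in
theorem card_gl (hq : Fintype.card F = q) (n : ℕ) :
    Nat.card (GL (Fin n) F) = q ^ (∑ i ∈ Finset.range n, i) * Dx q n := by
  rw [Matrix.card_GL_field, hq, Dx_nat (hq ▸ Fintype.card_pos)]
  exact prod_gl_eq n

theorem val_gl' (hq : Fintype.card F = q) (h : Cr p q) (n : ℕ) :
    padicValNat p (Nat.card (GL (Fin n) F)) = padicValNat p (Dx q n) := by
  rw [card_gl hq, val_mul_left (h.not_dvd_pow _) (Dx_ne_zero h.two n)]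

theorem abP_gl (hq : Fintype.card F = q) (h : Cr p q) {n : ℕ} (hn : n < p * ex p q) :
    AbP p (GL (Fin n) F) := by
  refine (abP_of_comm mul_comm).up (emb_pi_gl (m := p ^ ax p q) h.e_pos (by
    rw [hq, ← Ex_nat (hq ▸ Fintype.card_pos)]; exact pow_padicValNat_dvd) n) ?_
  rw [val_gl' hq h, h.valD_of_lt hn, card_pi_zmod, ← pow_mul, padicValNat.prime_pow]

theorem abP_gl' (hq : Fintype.card F = q) (h : Cr p q) {ι : Type*} [Fintype ι] [DecidableEq ι]
    (hn : Fintype.card ι < p * ex p q) : AbP p (GL ι F) :=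
  (abP_gl hq h hn).of_emb (.of_equiv (Units.mapEquiv
    (Matrix.reindexAlgEquiv F F (Fintype.equivFin ι)).toMulEquiv))

theorem emb_gl_gu (hF : Fintype.card F = q ^ 2) (m c : ℕ) :
    Emb (GL (Fin m) F) (GU (m + m + c) F q) := by
  let σ := frobq hF
  let J : Matrix ((Fin m ⊕ Fin m) ⊕ Fin c) ((Fin m ⊕ Fin m) ⊕ Fin c) F :=
    fromBlocks (fromBlocks 0 1 1 0) 0 0 1
  have hJ : J * J = 1 := by simp [J, fromBlocks_multiply]
  have hJ' : Jᵀ = J := by simp [J, fromBlocks_transpose]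
  have hJ2 : J.map σ = J := by simp [J, fromBlocks_map]
  let B := Matrix.toLinearMapₛₗ₂' F σ (RingHom.id F) J
  have hB : ∀ u v, B u v = (σ ∘ u) ⬝ᵥ (J *ᵥ v) := fun u v => by
    simp only [B, Matrix.toLinearMapₛₗ₂'_apply, dotProduct, mulVec, Finset.mul_sum, smul_eq_mul,
      RingHom.id_apply, Function.comp_apply, mul_comm (J _ _)]
  have hσ : ∀ u : (Fin m ⊕ Fin m) ⊕ Fin c → F, σ ∘ σ ∘ u = u := fun u =>
    funext fun i => frobq_frobq hF _
  have hm : ∀ (M : Matrix ((Fin m ⊕ Fin m) ⊕ Fin c) ((Fin m ⊕ Fin m) ⊕ Fin c) F) u,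
      σ ∘ (M *ᵥ u) = M.map σ *ᵥ (σ ∘ u) := fun M u => funext fun i => RingHom.map_mulVec σ M u i
  have hH : Form.Herm B := Form.herm_of_isSymm (frobq_ne_id hF) (frobq_frobq hF)
    ⟨fun u v => by
      rw [hB, hB, RingHom.map_dotProduct, hσ, hm, hJ2, dotProduct_mulVec, ← mulVec_transpose, hJ',
        dotProduct_comm]⟩ fun u hu => by
      have : σ ∘ u = 0 := dotProduct_eq_zero _ fun v => by
        have := hu (J *ᵥ v)
        rwa [hB, mulVec_mulVec, hJ, one_mulVec] at this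
      rw [← hσ u, this]
      exact funext fun i => map_zero σ
  obtain ⟨e⟩ := hH.nonempty_isomGroup_equiv_GU hF (n := m + m + c) (by simp)
  refine Emb.trans ?_ (.of_equiv e)
  let φ : GL (Fin m) F →* Matrix (Fin m ⊕ Fin m) (Fin m ⊕ Fin m) F :=
    { toFun := fun A => fromBlocks A 0 0 ((A⁻¹ : GL (Fin m) F).1.map σ)ᵀ
      map_one' := by simp
      map_mul' := fun A B => by simp [fromBlocks_multiply, Matrix.map_mul] }
  let ψ := (blk F (Equiv.refl ((Fin m ⊕ Fin m) ⊕ Fin c))).comp φ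
  let χ := (Matrix.GeneralLinearGroup.toLin (n := (Fin m ⊕ Fin m) ⊕ Fin c)).trans
    (LinearMap.GeneralLinearGroup.generalLinearEquiv F _)
  refine ⟨(χ.toMonoidHom.comp ψ.toHomUnits).codRestrict _ fun A u v => ?_, fun A B h => ?_⟩
  swap
  · have h1 : ψ.toHomUnits A = ψ.toHomUnits B := χ.injective (congrArg Subtype.val h)
    exact Units.ext (fromBlocks_inj.mp (blk_injective (Equiv.refl _) (congrArg Units.val h1))).1
  change B (ψ A *ᵥ u) (ψ A *ᵥ v) = B u v
  have h1 : ((ψ A).map σ)ᵀ * (J * ψ A) = J := by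
    change ((reindex _ _ (fromBlocks (fromBlocks A.1 0 0 ((A⁻¹ : GL (Fin m) F).1.map σ)ᵀ) 0 0
      1)).map σ)ᵀ * (J * reindex _ _ (fromBlocks (fromBlocks A.1 0 0
        ((A⁻¹ : GL (Fin m) F).1.map σ)ᵀ) 0 0 1)) = J
    have h2 : ((A⁻¹ : GL (Fin m) F).1.map σ).map σ = (A⁻¹ : GL (Fin m) F).1 := by
      ext i j; exact frobq_frobq hF _
    simp only [reindex_refl_refl, fromBlocks_map, fromBlocks_transpose, J, fromBlocks_multiply,
      Matrix.map_zero _ (map_zero σ), Matrix.map_one _ (map_zero σ) (map_one σ), transpose_zero,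
      transpose_one, Matrix.mul_zero, Matrix.zero_mul, add_zero, zero_add, Matrix.one_mul,
      ← transpose_mul, ← Matrix.map_mul, Units.inv_mul, transpose_map, h2, transpose_transpose]
  rw [hB, hB, hm, mulVec_mulVec, ← vecMul_transpose, ← dotProduct_mulVec, mulVec_mulVec, h1]

theorem abP_gu (hF : Fintype.card F = q ^ 2) (h : Cr p q) {n : ℕ} (hn : n < p * ex p (-q)) :
    AbP p (GU n F q) := by
  have h2 : Cr p (q ^ 2 : ℕ) := by push_cast; exact h.sq
  have h3 : ((q ^ 2 : ℕ) : ℤ) = (-q) ^ 2 := by push_cast; ring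
  rcases Cr.sq_cases (p := p) (x := -q) with ⟨e, -⟩ | e
  · exact (abP_gl hF h2 (by rwa [h3, e])).of_emb (.subgroup _)
  · have h4 : n / 2 < p * ex p (q ^ 2 : ℕ) := by
      rw [h3]; rw [e, mul_left_comm] at hn; omega
    have h5 := emb_gl_gu hF (n / 2) (n % 2)
    rw [show n / 2 + n / 2 + n % 2 = n by omega] at h5
    refine (abP_gl hF h2 h4).up h5 ?_
    rw [val_gl' hF h2, h2.valD_of_lt h4, Agent.S0277.result hF, ← Dx_neg (q := q) (h.two.trans' one_le_two),
      val_mul_left (h.not_dvd_pow _) (Dx_ne_zero h.neg.two n), h.neg.valD_of_lt hn, h3, h.neg.a_sq,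
      Nat.div_div_eq_div_mul, ← e]

theorem card_sp (hq : Fintype.card F = q) (m : ℕ) :
    Nat.card (symplecticGroup (Fin m) F) = q ^ m ^ 2 * Dx (q ^ 2) m := by
  rw [Agent.S0245.result hq, Dx_sq (hq ▸ Fintype.card_pos)]

theorem abP_sp (hq : Fintype.card F = q) (h : Cr p q) {m : ℕ} (hm : m < p * ex p (q ^ 2)) :
    AbP p (symplecticGroup (Fin m) F) := by
  rcases Cr.sq_cases (p := p) (x := q) with ⟨e, -⟩ | e
  · have : Finite (symplecticGroup (Fin m) F) := Subtype.finite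
    refine (abP_gl hq h (e ▸ hm)).up (emb_gl_sp m) ?_
    rw [val_gl' hq h, h.valD_of_lt (e ▸ hm), card_sp hq, val_mul_left (h.not_dvd_pow _)
      (Dx_ne_zero h.sq.two m), h.sq.valD_of_lt hm, h.a_sq, e]
  · exact (abP_gl hq h (by rw [e, mul_left_comm]; omega)).of_emb (emb_sp_gl m)

theorem abP_iso (hq : Fintype.card F = q) (h : Cr p q) {ι κ : Type} [Fintype ι] [DecidableEq ι]
    [Fintype κ] [DecidableEq κ] {m : ℕ} (e : (Fin m ⊕ Fin m) ⊕ κ ≃ ι) (Q : (ι → F) → F)
    (R : (κ → F) → F) (hQ : ∀ v, Q v = quadFormPlus m F (v ∘ e ∘ Sum.inl) + R (v ∘ e ∘ Sum.inr))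
    (hn : Fintype.card ι < 2 * (p * ex p (q ^ 2))) (hv : ex p (q ^ 2) = ex p q → Odd (ex p q) →
      padicValNat p (Nat.card (isometryGroup F Q)) ≤ padicValNat p (Dx q m)) :
    AbP p (POmega F Q) := by
  refine AbP.quot (AbP.of_emb ?_ (.subgroup _)) _
  rcases Cr.sq_cases (p := p) (x := q) with ⟨e1, e2⟩ | e1
  · refine (abP_gl hq h ?_).up (emb_GL_isometry e Q R hQ) (val_gl' hq h m ▸ hv e1 e2)
    rw [← Fintype.card_congr e, e1] at hn
    simp only [Fintype.card_sum, Fintype.card_fin] at hn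
    omega
  · exact (abP_gl' hq h (by rw [e1, mul_left_comm]; exact hn)).of_emb (.subgroup _)

/-- dimension two in the defining characteristic -/
theorem abP_gl_two (h : p ∣ Fintype.card F) : AbP p (GL (Fin 2) F) := by
  let φ : Multiplicative F →* Matrix (Fin 2) (Fin 2) F :=
    { toFun := fun t => !![1, t.toAdd; 0, 1]
      map_one' := by simp [one_fin_two]
      map_mul' := fun s t => by simp [add_comm] }
  refine (abP_of_comm mul_comm).up ⟨φ.toHomUnits, fun s t e =>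
    congrArg (fun z : GL (Fin 2) F => z.1 0 1) e⟩ ?_
  rw [card_gl rfl, mul_comm, val_mul_left (not_dvd_Dx (Int.natCast_dvd_natCast.2 h) _)
    (pow_ne_zero _ Fintype.card_ne_zero)]
  simp [Finset.sum_range_succ]

end Cfsg.Lib.KInv.Xs
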