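import Cfsg.Agent.KInv.XsAb
import Cfsg.Agent.Known.SymSylowAb
import Cfsg.Agent.S0243
import Cfsg.Agent.S0246
import Cfsg.Agent.S0280
import Cfsg.Agent.S0286
import Cfsg.Agent.S0287
import Cfsg.Agent.S0288
import Cfsg.Agent.S0292
import Cfsg.Agent.S0293
import Cfsg.Agent.S0294

/-!
# Alternating and classical groups with non-abelian Sylow `p`-subgroups of order `p ^ 3`
-/

set_option autoImplicit false

namespace Cfsg.Lib.KInv.Xs

open Cfsg.Lib.Known Cfsg.Lib.Known.SylH Cfsg.Lib.Known.Law Cfsg.Lib.Class Matrix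

variable {p : ℕ} [hp : Fact p.Prime]

theorem big {d c q N R : ℕ} (e : d * c = q ^ N * R) (hq : p ∣ q) (h0 : d ≠ 0)
    (hc : padicValNat p c = 3) : N ≤ padicValNat p d + 3 := by
  have hc0 : c ≠ 0 := by rintro rfl; simp at hc
  rw [← hc, ← padicValNat.mul h0 hc0, ← padicValNat_dvd_iff_le (mul_ne_zero h0 hc0), e]
  exact (pow_dvd_pow_of_dvd hq N).mul_right R

theorem big' {d c q N R : ℕ} (e : d * c = q ^ N * R) (hq : p ∣ q) (hd : ¬ p ∣ d)
    (hc : padicValNat p c = 3) : N ≤ 3 := by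
  simpa [padicValNat.eq_zero_of_not_dvd hd] using big e hq (by rintro rfl; simp at hd) hc

theorem def_val {d c k N R : ℕ} (e : d * c = (p ^ k) ^ N * R) (hd : ¬ p ∣ d) (hR : ¬ p ∣ R)
    (hc : padicValNat p c = 3) : k * N = 3 := by
  have := congrArg (padicValNat p) e
  rw [val_mul_left hd (by rintro rfl; simp at hc), mul_comm, val_mul_left hR
    (pow_ne_zero _ (pow_ne_zero _ hp.out.ne_zero)), ← pow_mul, padicValNat.prime_pow] at this
  omega

theorem not_dvd_gcd_four (h2 : p ≠ 2) (a : ℕ) : ¬ p ∣ Nat.gcd 4 a := fun e =>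
  not_dvd_two h2 (hp.out.dvd_of_dvd_pow (n := 2) (e.trans (Nat.gcd_dvd_left _ _)))

theorem not_dvd_gcd_two (h2 : p ≠ 2) (a : ℕ) : ¬ p ∣ Nat.gcd 2 a := fun e =>
  not_dvd_two h2 (e.trans (Nat.gcd_dvd_left _ _))

theorem not_bad_alt (h2 : p ≠ 2) (n : ℕ) : ¬ Bad p (alternatingGroup (Fin n)) := fun ⟨h, hA⟩ => by
  rw [← Nat.factorization_def _ hp.out, factorization_card_alt_of_ne_two h2, Fintype.card_fin] at h
  by_cases hn : n < p ^ 2
  · obtain ⟨H, _, h1, h3, φ, h4, h5⟩ := (abS_pow_div hp.out.ne_zero n).abA_of_odd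
      (hp.out.odd_of_ne_two h2).pow
    refine hA ((abP_of_comm h1).up ⟨φ.codRestrict _ fun x => Equiv.Perm.mem_alternatingGroup.2
      (h5 x), fun x y e => h4 (congrArg Subtype.val e)⟩ ?_)
    rw [h3, padicValNat.prime_pow, ← Nat.factorization_def _ hp.out,
      factorization_card_alt_of_ne_two h2, Fintype.card_fin,
      factorization_factorial_of_lt_sq hp.out hn]
  · have h1 := lt_factorization_factorial hp.out (not_lt.1 hn)
    have h3 := (Nat.le_div_iff_mul_le hp.out.pos).2 (sq p ▸ not_lt.1 hn)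
    have := hp.out.two_le
    omega

variable {F : Type} [Field F] [Fintype F] (h2 : p ≠ 2)

theorem exists_card_eq (h : p ∣ Fintype.card F) : ∃ k, Fintype.card F = p ^ k := by
  obtain ⟨r, _⟩ := CharP.exists F
  obtain ⟨k, hr, e⟩ := FiniteField.card F r
  rw [e] at h
  exact ⟨k, by rw [(Nat.prime_dvd_prime_iff_eq hp.out hr).1 (hp.out.dvd_of_dvd_pow h), e]⟩

omit hp in
theorem cr_card (h2 : p ≠ 2) (h : ¬ p ∣ Fintype.card F) : Cr p (Fintype.card F) :=
  cr_nat h2 h Fintype.one_lt_card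

theorem not_dvd_gcd_mul {x : ℤ} (h : (p : ℤ) ∣ x) (n : ℕ) : ¬ p ∣ Nat.gcd n (Ex x 1) * Ex x 1 :=
  fun e => not_dvd_Ex h one_ne_zero ((hp.out.dvd_mul.1 e).elim (·.trans (Nat.gcd_dvd_right _ _)) id)

include h2

theorem bad_psl {n : ℕ} (hn : 2 ≤ n) (h : Bad p (ProjectiveSpecialLinearGroup (Fin n) F)) :
    n = 3 ∧ Fintype.card F = p := by
  have e := Agent.S0243.result (F := F) rfl n hn
  rw [prod_gl_eq, ← Dx_nat Fintype.card_pos, ← pow_one (Fintype.card F),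
    ← Ex_nat Fintype.card_pos, pow_one] at e
  by_cases hq : p ∣ Fintype.card F
  · have hq' := Int.natCast_dvd_natCast.2 hq
    obtain ⟨k, hk⟩ := exists_card_eq hq
    rw [← mul_assoc] at e
    have h1 := def_val (e.trans (by rw [← hk])) (not_dvd_gcd_mul hq' n) (not_dvd_Dx hq' n) h.1
    have h3 := Finset.sum_range_id_mul_two n
    have h4 : n < 4 := by
      by_contra h4
      have := Nat.le_of_dvd (by norm_num) (Dvd.intro_left _ h1)
      have := Nat.mul_le_mul (not_lt.1 h4) (show 3 ≤ n - 1 by omega)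
      omega
    obtain rfl | rfl : n = 2 ∨ n = 3 := by omega
    · exact (h.2 (((abP_gl_two hq).of_emb emb_SL_GL).quot _)).elim
    · replace h1 : k * 3 = 3 := h1
      rw [hk, show k = 1 by omega, pow_one]
      exact ⟨rfl, rfl⟩
  · have hc := cr_card h2 hq
    by_cases hl : n < p * ex p (Fintype.card F)
    · exact (h.2 (((abP_gl rfl hc hl).of_emb emb_SL_GL).quot _)).elim
    · exact (hc.lin_ne (not_lt.1 hl) h.1 (hc.not_dvd_pow _) e).elim

theorem bad_psu {n q : ℕ} (hF : Fintype.card F = q ^ 2) (hn : 3 ≤ n) (h : Bad p (PSU n F q)) :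
    n = 3 ∧ q = p := by
  have e := Agent.S0280.result hF n (by omega)
  have h0 := two_le_of_card_sq hF
  rw [← Dx_neg (by omega), ← pow_one q, ← Ex_neg_odd q odd_one, pow_one] at e
  by_cases hq : p ∣ q
  · have hq' := dvd_neg.2 (Int.natCast_dvd_natCast.2 hq)
    obtain ⟨r, k, hr, -, -, hk⟩ := exists_prime_pow_of_card_sq hF
    obtain rfl := (Nat.prime_dvd_prime_iff_eq hp.out hr).1 (hp.out.dvd_of_dvd_pow (hk ▸ hq))
    rw [← mul_assoc] at e
    have h1 := def_val (e.trans (by rw [← hk])) (not_dvd_gcd_mul hq' n) (not_dvd_Dx hq' n) h.1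
    have h4 : n < 4 := by
      by_contra h4
      have := Nat.le_of_dvd (by norm_num) (Dvd.intro_left _ h1)
      have := Nat.mul_le_mul (not_lt.1 h4) (show 3 ≤ n - 1 by omega)
      omega
    obtain rfl : n = 3 := by omega
    rw [hk, show k = 1 by omega, pow_one]
    exact ⟨rfl, rfl⟩
  · have hc := cr_nat h2 hq h0
    by_cases hl : n < p * ex p (-q)
    · exact (h.2 (((abP_gu hF hc hl).of_emb ((Emb.of_equiv (suEquivKer n F q)).trans
        (.subgroup _))).quot _)).elim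
    · exact (hc.neg.lin_ne (not_lt.1 hl) h.1 (hc.not_dvd_pow _) e).elim

theorem symp_ne {m d c q : ℕ} (hm : 2 ≤ m) (h0 : 2 ≤ q) (hd : ¬ p ∣ d) (hc : padicValNat p c = 3)
    (e : d * c = q ^ m ^ 2 * Dx (q ^ 2) m) : Cr p q ∧ m < p * ex p (q ^ 2) := by
  by_cases hq : p ∣ q
  · have := big' e hq hd hc
    nlinarith
  · have h := cr_nat h2 hq h0
    refine ⟨h, not_le.1 fun hl => ?_⟩
    have h1 := h.sq.four_le_valD hl
    rw [← val_mul_left (h.not_dvd_pow (m ^ 2)) (Dx_ne_zero h.sq.two m), ← e,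
      val_mul_left hd (by rintro rfl; simp at hc)] at h1
    omega

theorem not_bad_psp {m : ℕ} (hm : 2 ≤ m) : ¬ Bad p (PSp m F) := fun h => by
  have e := Subgroup.card_eq_card_quotient_mul_card_subgroup
    (Subgroup.center (symplecticGroup (Fin m) F))
  rw [Agent.S0246.result rfl m (by omega), card_sp rfl, mul_comm, eq_comm, mul_comm,
    mul_comm (Dx _ _)] at e
  have : Finite (symplecticGroup (Fin m) F) := Subtype.finite
  obtain ⟨h3, h4⟩ := symp_ne h2 hm Fintype.one_lt_card (not_dvd_gcd_two h2 _) h.1 e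
  exact h.2 ((abP_sp rfl h3 h4).quot _)

theorem not_bad_omegaOdd {m : ℕ} (hm : 3 ≤ m) (ho : Odd (Fintype.card F)) :
    ¬ Bad p (POmega F (quadFormOdd m F)) := fun h => by
  have e := Agent.S0292.result rfl ho m hm
  rw [← Dx_sq Fintype.card_pos] at e
  obtain ⟨h3, h4⟩ := symp_ne h2 (by omega) Fintype.one_lt_card (not_dvd_two h2) h.1 e
  refine h.2 (abP_iso rfl h3 (Equiv.sumComm _ _) _ (fun v : Unit → F => v () ^ 2)
    (fun v => add_comm _ _) (by simp; omega) fun e1 _ => ?_)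
  rw [Agent.S0286.result rfl ho, ← Dx_sq Fintype.card_pos, mul_assoc, val_mul_left (not_dvd_two h2)
    (mul_ne_zero (pow_ne_zero _ Fintype.card_ne_zero) (Dx_ne_zero h3.sq.two m)),
    val_mul_left (h3.not_dvd_pow _) (Dx_ne_zero h3.sq.two m), h3.sq.valD_of_lt h4,
    h3.valD_of_lt (e1 ▸ h4), h3.a_sq, e1]

omit h2 hp in
theorem Ex_sq_nat {q : ℕ} (h : 1 ≤ q) (i : ℕ) :
    (q ^ i - 1) * (q ^ i + 1) = Ex ((q : ℤ) ^ 2) i := by
  rw [Ex_sq, Ex_nat h, mul_comm 2, pow_mul, ← one_pow 2, Nat.sq_sub_sq, one_pow, mul_comm]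

theorem not_both {a : ℕ} (h : 1 ≤ a) : ¬ (p ∣ a - 1 ∧ p ∣ a + 1) := fun ⟨h3, h4⟩ =>
  not_dvd_two h2 (by simpa [show a + 1 - (a - 1) = 2 by omega] using Nat.dvd_sub h4 h3)

theorem orth_ne' {m d c q z z' : ℕ} (hm : 3 ≤ m) (h0 : 2 ≤ q) (hd : ¬ p ∣ d)
    (hc : padicValNat p c = 3) (hz : z * z' = Ex (q ^ 2) (m + 1)) (hz' : ¬ (p ∣ z ∧ p ∣ z'))
    (e : d * c = q ^ ((m + 1) * m) * z * Dx (q ^ 2) m) : Cr p q ∧ m + 1 < p * ex p (q ^ 2) := by
  by_cases hq : p ∣ q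
  · have := big' (e.trans (mul_assoc _ _ _)) hq hd hc
    nlinarith
  · have h := cr_nat h2 hq h0
    exact ⟨h, not_le.1 fun hl => h.orth_ne hl hc hd (h.not_dvd_pow _) hz hz' e⟩

theorem not_bad_omegaPlus {m : ℕ} (hm : 4 ≤ m) : ¬ Bad p (POmega F (quadFormPlus m F)) :=
    fun h => by
  have e := Agent.S0293.result (F := F) rfl m hm
  have e' := Agent.S0287.result (F := F) rfl m (by omega)
  obtain ⟨m, rfl⟩ : ∃ k, m = k + 1 := ⟨m - 1, by omega⟩
  rw [← Dx_sq Fintype.card_pos, Nat.add_sub_cancel] at e e'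
  obtain ⟨h3, h4⟩ := orth_ne' h2 (by omega) Fintype.one_lt_card (not_dvd_gcd_four h2 _) h.1
    (Ex_sq_nat Fintype.card_pos _) (not_both h2 (Nat.one_le_pow _ _ Fintype.card_pos)) e
  refine h.2 (abP_iso rfl h3 (Equiv.sumEmpty _ Empty) _ (fun _ => 0)
    (fun v => (add_zero _).symm) (by simp; omega) fun e1 _ => ?_)
  have h5 := Dx_ne_zero h3.sq.two m
  have h6 := Ex_ne_zero h3.two m.succ_ne_zero
  rw [e', ← Ex_nat Fintype.card_pos, mul_assoc, mul_assoc, val_mul_left (not_dvd_two h2)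
    (mul_ne_zero (pow_ne_zero _ Fintype.card_ne_zero) (mul_ne_zero h6 h5)),
    val_mul_left (h3.not_dvd_pow _) (mul_ne_zero h6 h5), Dx_succ, padicValNat.mul h6 h5,
    padicValNat.mul (Dx_ne_zero h3.two m) h6, h3.sq.valD, h3.valD, h3.a_sq, e1, add_comm]

theorem not_bad_omegaMinus {m : ℕ} (hm : 4 ≤ m) {a b : F}
    (hab : ∀ z₁ z₂ : F, z₁ ^ 2 + a * z₁ * z₂ + b * z₂ ^ 2 = 0 → z₁ = 0 ∧ z₂ = 0) :
    ¬ Bad p (POmega F (quadFormMinus (m - 1) F a b)) := fun h => by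
  have e := Agent.S0294.result (F := F) rfl m hm a b hab
  have e' := Agent.S0288.result (F := F) rfl m (by omega) a b hab
  obtain ⟨m, rfl⟩ : ∃ k, m = k + 1 := ⟨m - 1, by omega⟩
  rw [← Dx_sq Fintype.card_pos] at e e'
  have h1 := not_both h2 (Nat.one_le_pow (m + 1) _ (Fintype.card_pos (α := F)))
  obtain ⟨h3, h4⟩ := orth_ne' (m := m) h2 (by omega) Fintype.one_lt_card (not_dvd_gcd_four h2 _) h.1
    ((mul_comm _ _).trans (Ex_sq_nat Fintype.card_pos _)) (mt And.symm h1) e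
  refine h.2 (abP_iso rfl h3 (Equiv.refl _) _
    (fun v : Fin 2 → F => v 0 ^ 2 + a * v 0 * v 1 + b * v 1 ^ 2)
    (fun v => rfl) (by simp; omega) fun e1 _ => ?_)
  have h5 := Dx_ne_zero h3.sq.two m
  have h6 : ¬ p ∣ Fintype.card F ^ (m + 1) + 1 := fun h6 => h1 ⟨by
    have h7 := h6.mul_left (Fintype.card F ^ (m + 1) - 1)
    rw [Ex_sq_nat Fintype.card_pos, dvd_Ex_iff, e1, ← dvd_Ex_iff, Ex_nat Fintype.card_pos] at h7
    exact h7, h6⟩
  rw [e', Nat.add_sub_cancel, mul_assoc, mul_assoc, val_mul_left (not_dvd_two h2)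
    (mul_ne_zero (pow_ne_zero _ Fintype.card_ne_zero) (mul_ne_zero (Nat.succ_ne_zero _) h5)),
    val_mul_left (h3.not_dvd_pow _) (mul_ne_zero (Nat.succ_ne_zero _) h5), val_mul_left h6 h5,
    h3.sq.valD, h3.valD, h3.a_sq, e1]

end Cfsg.Lib.KInv.Xs
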