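import Cfsg.Agent.KInv.XsAb
import Cfsg.Agent.S2374

/-!
# An elementary abelian subgroup of order `7 ^ 3` of `E₇(q)` for `q ≡ 2, 3, 4, 5 (mod 7)`
-/

set_option autoImplicit false
set_option maxRecDepth 100000

namespace Cfsg.Lib.KInv.Xs

open Cfsg.Lib.Known.SylH Cfsg.Lib.Chev Cfsg.Lib.Chev.Core Cfsg.Lie Cfsg.Agent.S2374

theorem chr_chr {ι κ M : Type*} [Fintype ι] [Fintype κ] [CommGroup M] (t : ι → M) (B : ι → κ → ℤ)
    (v : κ → ℤ) : chr (fun j => chr t fun i => B i j) v = chr t fun i => ∑ j, B i j * v j := by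
  simp only [chr, ← Finset.prod_zpow, ← zpow_mul]
  rw [Finset.prod_comm]
  exact Finset.prod_congr rfl fun i _ => by simpa only [chr, ← zpow_mul] using chr_zpow (t i) (B i) v

theorem chr_mod {ι M : Type*} [Fintype ι] [CommGroup M] {t : ι → M} {n : ℤ} (h : ∀ i, t i ^ n = 1)
    {u v : ι → ℤ} (e : ∀ i, n ∣ u i - v i) : chr t u = chr t v :=
  Finset.prod_congr rfl fun i _ => by
    obtain ⟨k, hk⟩ := e i
    rw [sub_eq_iff_eq_add.1 hk, zpow_add, zpow_mul, h, one_zpow, one_mul]

theorem e7_emb (F : Type) [Field F] [Fintype F] (h7 : ¬ 7 ∣ Fintype.card F) (ω : List (Fin 7))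
    (B : List (List ℤ)) {s : ℕ} (hs : Fintype.card F % 7 = s)
    (h1 : ∀ (i : Fin 3) (j : Fin 7), 7 ∣ ∑ l : Fin 7, evL (B.getD i []) l * evL
      (((List.finRange 7).map fun j => actL cT ω.reverse (omegaL j)).getD j []) l -
        s * evL (B.getD i []) j)
    (h2 : ∀ i j : Fin 3, 7 ∣ ∑ l : Fin 7, evL (B.getD i []) l * evL (cT.getD j []) l -
      (Pi.single j 1 : Fin 3 → ℤ) i) :
    ∃ (A : Type) (_ : CommGroup A), Nat.card A = 7 ^ 3 ∧ Emb A (chevE7.group F) := by
  obtain ⟨H, ⟨e⟩, -⟩ := certE7.exists_twisted_torus rootE7 F (snf_of_mem (by simp))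
    (hHom_stGen_injective_E7 _) ω
  obtain ⟨ζ, h3, -⟩ := exists_unit_order (AlgebraicClosure F) (n := 7) (by
    intro h
    obtain ⟨r, _⟩ := CharP.exists F
    obtain ⟨k, hr, hk⟩ := FiniteField.card F r
    have := (CharP.intCast_eq_zero_iff (AlgebraicClosure F) r 7).1 h
    rw [hk, (Nat.prime_dvd_prime_iff_eq hr Nat.prime_seven).1 (Int.natCast_dvd_natCast.1 this)] at h7
    exact h7 (dvd_pow_self _ k.ne_zero))
  have h4 : Nat.card (Subgroup.zpowers ζ) = 7 := (Nat.card_zpowers ζ).trans h3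
  have h5 : ∀ (t : Fin 3 → Subgroup.zpowers ζ) i, (t i).1 ^ (7 : ℤ) = 1 := fun t i => by
    have := pow_card_eq_one' (x := t i)
    rw [h4] at this
    exact_mod_cast this
  let φ : (Fin 3 → Subgroup.zpowers ζ) →* (Fin 7 → (AlgebraicClosure F)ˣ) :=
    MonoidHom.mk' (fun t j => chr (fun i => (t i).1) fun i => evL (B.getD i []) j)
      fun s t => funext fun j => chr_mul _ _ _
  refine ⟨Fin 3 → Subgroup.zpowers ζ, inferInstance, by rw [Nat.card_fun, h4, Nat.card_fin],
    Emb.trans ⟨((cartanHom chevE7 _).comp φ).codRestrict ((TwS chevE7 _ ω (Fintype.card F)).map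
      (cartanHom chevE7 _)) fun t => ⟨φ t, mem_TwS.2 (funext fun j => ?_), rfl⟩, (injective_iff_map_eq_one _).2 fun t ht => funext fun j =>
      Subtype.ext ?_⟩ ((Emb.of_equiv e.symm).trans (.subgroup H))⟩
  · refine (hT.scW_apply ω _ j).trans
      ((chr_chr _ (fun (i : Fin 3) (l : Fin 7) => evL (B.getD i []) l) _).trans
      ((chr_mod (h5 t) fun i => ?_).trans ((chr_smul _ (Fintype.card F) _).trans
        (zpow_natCast _ _))))
    have := (h1 i j).sub (Dvd.intro (Fintype.card F / 7 * evL (l := 7) (B.getD i []) j) rfl)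
    rwa [sub_sub, ← hs, ← mul_assoc, ← add_mul, show ((Fintype.card F % 7 : ℕ) : ℤ) +
      7 * (Fintype.card F / 7) = Fintype.card F by omega] at this
  · have h6 := congrFun (congrArg Subtype.val ht) (j.castLE (by decide))
    refine (chr_single (fun i => (t i).1) j).symm.trans
      (((chr_chr _ (fun (i : Fin 3) (l : Fin 7) => evL (B.getD i []) l) _).trans
      (chr_mod (h5 t) fun i => ?_)).symm.trans h6)
    convert h2 i j using 4 with l
    rw [show cT.getD j [] = _ from hT (j.castLE (by decide))]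
    exact (congrFun (evL_ofFn fun l : Fin 7 =>
      chevE7.cartan l (chevE7.simple (j.castLE (by decide) : Fin 7))) l).symm

theorem e7_emb' (F : Type) [Field F] [Fintype F] (h : ex 7 (Fintype.card F) = 3 ∨
    ex 7 (Fintype.card F) = 6) :
    ∃ (A : Type) (_ : CommGroup A), Nat.card A = 7 ^ 3 ∧ Emb A (chevE7.group F) := by
  have := Fact.mk Nat.prime_seven
  have h1 : ¬ ex 7 (Fintype.card F) ∣ 2 := by rcases h with h | h <;> rw [h] <;> decide
  have h2 : ex 7 (Fintype.card F) ∣ 6 := by rcases h with h | h <;> simp [h]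
  rw [orderOf_dvd_iff_pow_eq_one, Int.cast_natCast, ← ZMod.natCast_mod] at h1 h2
  have h3 : Fintype.card F % 7 < 7 := Nat.mod_lt _ (by norm_num)
  have h7 : ¬ 7 ∣ Fintype.card F := fun e => by
    rw [Nat.mod_eq_zero_of_dvd e] at h2
    exact absurd h2 (by decide)
  generalize hs : Fintype.card F % 7 = s at h1 h2 h3
  interval_cases s
  · exact absurd h2 (by decide)
  · exact absurd (by decide) h1
  · exact e7_emb F h7 (List.replicate 6 (List.finRange 7)).flatten
      [[0, 6, 6, 5, 6, 2, 2], [2, 0, 4, 6, 3, 5, 1], [1, 1, 2, 2, 6, 6, 1]] hs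
      (by decide +kernel) (by decide +kernel)
  · exact e7_emb F h7 (List.replicate 3 (List.finRange 7)).flatten
      [[0, 6, 6, 5, 6, 2, 2], [2, 0, 4, 6, 3, 5, 1], [1, 1, 2, 2, 6, 6, 1]] hs
      (by decide +kernel) (by decide +kernel)
  · exact e7_emb F h7 (List.replicate 6 (List.finRange 7)).flatten
      [[0, 6, 6, 5, 6, 4, 4], [5, 1, 3, 1, 2, 6, 4], [1, 1, 2, 2, 4, 4, 1]] hs
      (by decide +kernel) (by decide +kernel)
  · exact e7_emb F h7 (List.replicate 3 (List.finRange 7)).flatten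
      [[0, 6, 6, 5, 6, 4, 4], [5, 1, 3, 1, 2, 6, 4], [1, 1, 2, 2, 4, 4, 1]] hs
      (by decide +kernel) (by decide +kernel)
  · exact absurd (by decide) h1

end Cfsg.Lib.KInv.Xs
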