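import Cfsg.Agent.KInv.XsCl
import Cfsg.Agent.KInv.XsE7
import Cfsg.Agent.Chev.TwistSt
import Cfsg.Agent.S1059
import Cfsg.Agent.S1062
import Cfsg.Agent.S1063
import Cfsg.Agent.S1064
import Cfsg.Agent.S1065
import Cfsg.Agent.S1066
import Cfsg.Agent.S1067
import Cfsg.Agent.S1068
import Cfsg.Agent.S1069
import Cfsg.Agent.S1163
import Cfsg.Agent.S2378

/-!
# Exceptional groups with non-abelian Sylow `p`-subgroups of order `p ^ 3`
-/

set_option autoImplicit false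

namespace Cfsg.Lib.KInv.Xs

open Cfsg.Lib.Known.SylH Cfsg.Lib.Chev Cfsg.Lib.Chev.Core Cfsg.Lie

variable {p : ℕ} [hp : Fact p.Prime]

theorem Cr.valL {x : ℤ} (h : Cr p x) {L : List ℕ} (hL : L.prod ≠ 0) :
    padicValNat p (L.map (Ex x)).prod = ax p x * (L.filter (ex p x ∣ ·)).length +
      ((L.filter (ex p x ∣ ·)).map (padicValNat p)).sum ∧ (L.map (Ex x)).prod ≠ 0 := by
  induction L with
  | nil => simp
  | cons i L ih =>
    rw [List.prod_cons] at hL
    obtain ⟨h1, h2⟩ := ih (right_ne_zero_of_mul hL)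
    have h3 := Ex_ne_zero h.two (left_ne_zero_of_mul hL)
    rw [List.map_cons, List.prod_cons, padicValNat.mul h3 h2, h1, h.val (left_ne_zero_of_mul hL),
      List.filter_cons]
    refine ⟨?_, mul_ne_zero h3 h2⟩
    by_cases e : ex p x ∣ i
    · simp only [e, if_true, decide_true, List.length_cons, List.map_cons, List.sum_cons]
      ring
    · simp [e]

/-- The numerical check for a prime `p` dividing the order of the Weyl group. -/
def Chk (L E : List ℕ) (p : ℕ) : Prop := ∀ e < p, e ∣ p - 1 → ∀ a < 5, ∀ t ≤ padicValNat p 3,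
  t + 3 = (a + 1) * (L.filter (e ∣ ·)).length + ((L.filter (e ∣ ·)).map (padicValNat p)).sum →
    e ∈ E

theorem Chk_eq_1' : type_of% @Chk.eq_1 := @Chk.eq_1

set_option synthInstance.maxSize 2000 in
instance instDecChk (L E : List ℕ) (p : ℕ) : Decidable (Chk L E p) := by unfold Chk; infer_instance

theorem Cr.num {x : ℤ} (h : Cr p x) {L E : List ℕ} (hL : L.prod ≠ 0) {d c y : ℕ} (hy : ¬ p ∣ y)
    (hd : d ∣ 6) (hc : padicValNat p c = 3) (e : d * c = y * (L.map (Ex x)).prod)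
    (k : Chk L E p) : ex p x ∈ E := by
  obtain ⟨h1, h2⟩ := h.valL hL
  have h3 := congrArg (padicValNat p) e
  rw [val_mul_left hy h2, h1, padicValNat.mul (by rintro rfl; simp at hd)
    (by rintro rfl; simp at hc), hc] at h3
  have h4 : padicValNat p d ≤ padicValNat p 3 :=
    (val_le_of_dvd hd (by decide)).trans_eq (val_mul_left (not_dvd_two h.odd) (c := 3) (by decide))
  have h5 : padicValNat p 3 ≤ 1 := by
    by_contra h5
    have := Nat.le_of_dvd (by decide) ((padicValNat_dvd_iff_le (p := p) (a := 3) (n := 2)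
      (by decide)).2 (by omega))
    have := h.three_le
    nlinarith
  have h6 := h.a_pos
  rcases Nat.eq_zero_or_pos (L.filter (ex p x ∣ ·)).length with h7 | h7
  · exact k _ h.e_lt h.e_dvd 0 (by decide) _ h4 (by rw [h3, h7, mul_zero, mul_zero])
  · have := Nat.le_mul_of_pos_right (ax p x) h7
    exact k _ h.e_lt h.e_dvd (ax p x - 1) (by omega) _ h4 (by rw [h3, Nat.sub_add_cancel h6])

theorem big6 {d c q N R : ℕ} (h2 : p ≠ 2) (e : d * c = q ^ N * R) (hq : p ∣ q) (hd : d ∣ 6)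
    (hc : padicValNat p c = 3) : N ≤ 4 := by
  have h1 := big e hq (by rintro rfl; simp at hd) hc
  by_contra h3
  have h4 := ((padicValNat_dvd_iff_le (p := p) (a := d) (n := 2) (by rintro rfl; simp at hd)).2
    (by omega)).trans hd
  have := Nat.le_of_dvd (by decide) h4
  have := hp.out.two_le
  have : 3 ≤ p := by omega
  nlinarith

theorem dvd_cases {n : ℕ} (h2 : p ≠ 2) (l : List ℕ) (h : p ∣ n)
    (k : n ∣ (2 * l.prod) ^ 20 ∧ ∀ a ∈ l, a.Prime := by decide +kernel) : p ∈ l := by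
  obtain ⟨a, ha, e⟩ := (Prime.dvd_prod_iff hp.out.prime).1
    ((hp.out.dvd_mul.1 (hp.out.dvd_of_dvd_pow (h.trans k.1))).resolve_left (not_dvd_two h2))
  exact (Nat.prime_dvd_prime_iff_eq hp.out (k.2 a ha)).1 e ▸ ha

variable {F : Type} [Field F] [Fintype F] {D : ChevalleyDatum} {L : List ℕ}
  (hD : (D, L) ∈ [(chevG2, [2, 6]), (chevB2, [2, 4]), (chevD4, [2, 4, 4, 6]),
    (chevF4, [2, 6, 8, 12]), (chevE6, [2, 5, 6, 8, 9, 12]), (chevE7, [2, 6, 8, 10, 12, 14, 18]),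
    (chevE8, [2, 8, 12, 14, 18, 20, 24, 30])])

include hD in
theorem abP_chev (hq : ¬ p ∣ Fintype.card F) (hL : ¬ p ∣ L.prod) : AbP p (D.group F) := by
  by_cases h : p ∣ Nat.card (D.group F)
  · obtain ⟨S⟩ : Nonempty (Sylow p (D.group F)) := inferInstance
    obtain ⟨e⟩ := Agent.S2378.result rfl _ hD p hq hL h S
    exact abP_of_sylow S ⟨⟨fun a b => e.injective (by rw [map_mul, map_mul, mul_comm])⟩⟩
  · exact (abP_of_comm (H := Unit) mul_comm).up emb_of_subsingleton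
      (by rw [padicValNat.eq_zero_of_not_dvd h]; exact zero_le)

include hD in
theorem Bad.dvd_chev (h : Bad p (D.group F)) (hq : ¬ p ∣ Fintype.card F) : p ∣ L.prod :=
  by_contra fun k => h.2 (abP_chev hD hq k)

include hD in
theorem Bad.dvd_tw {S : Set (List (ℕ × F))} (h : Bad p (D.genSubgroup F S))
    (hq : ¬ p ∣ Fintype.card F) : p ∣ L.prod := by_contra fun k => by
  obtain ⟨C, R⟩ := cert_root_of_mem (D := D) (List.mem_map_of_mem (f := Prod.fst) hD)
  have : D.genSubgroup F S ≤ D.group F := by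
    rw [C.genSubgroup_eq (R := R), Subgroup.closure_le]
    rintro _ ⟨w, -, rfl⟩
    exact word_mem _ fun _ _ => xGL_mem_group _ _
  exact h.2 ((abP_chev hD hq k).of_emb ⟨_, Subgroup.inclusion_injective this⟩)

variable (h2 : p ≠ 2)
include h2

theorem chev_num (N : ℕ) (E l : List ℕ) {q d c : ℕ} {x : ℤ} (hx : x.natAbs = q) (hq : 2 ≤ q)
    (hd : d ∣ 6) (hc : padicValNat p c = 3) (e : d * c = q ^ N * (L.map (Ex x)).prod)
    (h : ¬ p ∣ q → p ∣ L.prod) (k : (L.prod ∣ (2 * l.prod) ^ 20 ∧ ∀ a ∈ l, a.Prime) ∧ 4 < N ∧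
      L.prod ≠ 0 ∧ ∀ a ∈ l, Chk L (if a = 7 then E else []) a := by decide +kernel) :
    p = 7 ∧ ex p x ∈ E := by
  have h1 : ¬ p ∣ q := fun h1 => (big6 h2 e h1 hd hc).not_gt k.2.1
  have h3 := Cr.num ⟨h2, by rwa [Int.natCast_dvd, hx], hx.symm ▸ hq⟩ k.2.2.1
    ((cr_nat h2 h1 hq).not_dvd_pow N) hd hc e (k.2.2.2 p (dvd_cases h2 l (h h1) k.1))
  split_ifs at h3 with h4
  · exact ⟨h4, h3⟩
  · simp at h3

theorem not_bad_F4 : ¬ Bad p (chevF4.group F) := fun h => by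
  simpa using (chev_num (L := [2, 6, 8, 12]) h2 24 [] [3] (Int.natAbs_natCast _)
    Fintype.one_lt_card (one_dvd 6) h.1 (by
      simp [Agent.S1062.result (F := F) rfl, Ex_nat Fintype.card_pos, mul_assoc])
    (h.dvd_chev (by simp))).2

theorem not_bad_E6 : ¬ Bad p (chevE6.group F) := fun h => by
  simpa using (chev_num (L := [2, 5, 6, 8, 9, 12]) h2 36 [] [3, 5] (Int.natAbs_natCast _)
    Fintype.one_lt_card ((Nat.gcd_dvd_left 3 _).trans (by decide)) h.1
    ((Agent.S1063.result (F := F) rfl).trans (by simp [Ex_nat Fintype.card_pos, mul_assoc]))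
    (h.dvd_chev (by simp))).2

theorem not_bad_E7 : ¬ Bad p (chevE7.group F) := fun h => by
  obtain ⟨rfl, h1⟩ := chev_num (L := [2, 6, 8, 10, 12, 14, 18]) h2 63 [3, 6] [3, 5, 7]
    (Int.natAbs_natCast _) Fintype.one_lt_card ((Nat.gcd_dvd_left 2 _).trans (by decide)) h.1
    ((Agent.S1064.result (F := F) rfl).trans (by simp [Ex_nat Fintype.card_pos, mul_assoc]))
    (h.dvd_chev (by simp))
  obtain ⟨A, _, h3, h4⟩ := e7_emb' F (by simpa using h1)
  exact h.2 ((abP_of_comm mul_comm).up h4 (by rw [h.1, h3, padicValNat.prime_pow]))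

theorem not_bad_E8 : ¬ Bad p (chevE8.group F) := fun h => by
  simpa using (chev_num (L := [2, 8, 12, 14, 18, 20, 24, 30]) h2 120 [] [3, 5, 7]
    (Int.natAbs_natCast _) Fintype.one_lt_card (one_dvd 6) h.1 (by
      simp [Agent.S1065.result (F := F) rfl, Ex_nat Fintype.card_pos, mul_assoc])
    (h.dvd_chev (by simp))).2

theorem not_bad_2E6 {q : ℕ} (hq : IsPrimePow q) (hF : Fintype.card F = q ^ 2) :
    ¬ Bad p (twistedE6 F q) := fun h => by
  have h1 := fun i => Ex_neg_even (i := i) hq.pos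
  have h3 := fun i => Ex_neg_odd q (i := i)
  simpa using (chev_num (L := [2, 5, 6, 8, 9, 12]) (x := -q) h2 36 [] [3, 5] (by simp)
    hq.two_le ((Nat.gcd_dvd_left 3 _).trans (by decide)) h.1
    ((Agent.S1066.result hq hF).trans (by
      simp [h1 2 (by decide), h1 6 (by decide), h1 8 (by decide), h1 12 (by decide),
        h3 5 (by decide), h3 9 (by decide), mul_assoc]))
    fun k => h.dvd_tw (by simp) (hF ▸ mt hp.out.dvd_of_dvd_pow k)).2

omit hp h2 in
theorem not_dvd_of_val {c : ℕ} (h : padicValNat 3 c = 3) : ¬ 81 ∣ c := fun k => by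
  have := Fact.mk Nat.prime_three
  have := (padicValNat_dvd_iff_le (p := 3) (n := 4) (by rintro rfl; simp at h)).1 k
  omega

omit hp h2 in
theorem nine_dvd {q : ℕ} (h : ¬ 3 ∣ q) : 3 ∣ q ^ 2 - 1 ∧ 9 ∣ q ^ 6 - 1 ∧ 3 ∣ q ^ 8 + q ^ 4 + 1 := by
  have h1 : ∀ r < 9, r % 3 ≠ 0 → r ^ 6 % 9 = 1 := by decide
  have h2 : ∀ r < 3, r ≠ 0 → r ^ 2 % 3 = 1 ∧ (r ^ 8 + r ^ 4 + 1) % 3 = 0 := by decide
  obtain ⟨h3, h4⟩ := h2 (q % 3) (by omega) (by omega)
  have h5 := h1 (q % 9) (by omega) (by omega)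
  rw [← Nat.pow_mod] at h3 h5
  have := Nat.pow_mod q 8 3
  have := Nat.pow_mod q 4 3
  omega

theorem not_bad_3D4 {q : ℕ} (hq : IsPrimePow q) (hF : Fintype.card F = q ^ 3) :
    ¬ Bad p (twistedD4 F q) := fun h => by
  have e := Agent.S1067.result hq hF
  have h1 : ¬ p ∣ q := fun k => absurd (big6 h2 ((one_mul _).trans (e.trans (by
    rw [mul_assoc, mul_assoc]))) k (one_dvd 6) h.1) (by decide)
  have h3 := dvd_cases h2 [3] (h.dvd_tw (L := [2, 4, 4, 6]) (by simp)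
    (hF ▸ mt hp.out.dvd_of_dvd_pow h1))
  obtain rfl := List.mem_singleton.1 h3
  obtain ⟨a, b, c⟩ := nine_dvd h1
  exact not_dvd_of_val h.1 (e ▸ mul_dvd_mul (mul_dvd_mul (a.mul_left _) b) c)

theorem not_bad_Ree {m : ℕ} (hm : 1 ≤ m) (hF : Fintype.card F = 3 ^ (2 * m + 1)) :
    ¬ Bad p (twistedG2 F (3 ^ m)) := fun h => by
  have h1 : p ∣ 3 := by_contra fun k => k (List.mem_singleton.1 (dvd_cases h2 [3]
    (h.dvd_tw (L := [2, 6]) (by simp) (hF ▸ mt hp.out.dvd_of_dvd_pow k))) ▸ dvd_rfl)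
  have := big6 h2 ((one_mul _).trans ((Agent.S1069.result hF).trans (by
    rw [mul_assoc, ← pow_mul]))) h1 (one_dvd 6) h.1
  omega

theorem not_bad_Sz {m : ℕ} (hF : Fintype.card F = 2 ^ (2 * m + 1)) (e : ℕ) :
    ¬ Bad p (Lie.Sz F e) := fun h => by
  have h1 := cr_card h2 (hF ▸ mt hp.out.dvd_of_dvd_pow (not_dvd_two h2))
  refine h.2 ((abP_gl rfl h1 ?_).of_emb (.subgroup _))
  have h3 := h1.three_le
  have h4 := h1.e_pos
  by_cases h5 : ex p (Fintype.card F) ∣ 1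
  · rw [Nat.dvd_one.1 h5, mul_one]
    rw [← dvd_Ex_iff, Ex_nat Fintype.card_pos, pow_one] at h5
    by_contra h6
    obtain rfl | rfl : p = 3 ∨ p = 4 := by omega
    · exact not_both h2 Fintype.card_pos ⟨h5, by
        simpa [hF] using (odd_two_mul_add_one m).nat_add_dvd_pow_add_pow 2 1⟩
    · exact absurd hp.out (by decide)
  · have := Nat.mul_le_mul h3 (show 2 ≤ ex p (Fintype.card F) by rw [Nat.dvd_one] at h5; omega)
    omega

theorem bad_2F4 {m : ℕ} (hF : Fintype.card F = 2 ^ (2 * m + 1)) (h : Bad p (twistedF4 F (2 ^ m))) :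
    p = 3 ∧ ¬ 3 ∣ 2 * m + 1 := by
  obtain rfl := List.mem_singleton.1 (dvd_cases h2 [3] (h.dvd_tw (L := [2, 6, 8, 12]) (by simp)
    (hF ▸ mt hp.out.dvd_of_dvd_pow (not_dvd_two h2))))
  refine ⟨rfl, fun ⟨j, hj⟩ => not_dvd_of_val h.1 ?_⟩
  have h1 : 9 ∣ 2 ^ (2 * m + 1) + 1 := by
    simpa [hj, pow_mul] using
      (Nat.Odd.of_mul_right (hj ▸ odd_two_mul_add_one m)).nat_add_dvd_pow_add_pow 8 1
  rw [Agent.S1068.result hF]
  generalize 2 ^ (2 * m + 1) = q at h1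
  have h3 : q + 1 ∣ q ^ 3 + 1 := by
    simpa using (by decide : Odd 3).nat_add_dvd_pow_add_pow q 1
  have h4 : q + 1 ∣ q ^ 4 - 1 := (Dvd.intro _ (by simpa using (Nat.sq_sub_sq q 1).symm)).trans
    (Nat.pow_sub_one_dvd_pow_sub_one q (by decide : 2 ∣ 4))
  exact (mul_dvd_mul ((h1.trans h3).mul_left _) (h1.trans h4)).mul_right _

theorem bad_G2 (h3 : 3 ≤ Fintype.card F) (h : Bad p (chevG2.group F)) : p = 3 ∧ ∃ r a : ℕ, r.Prime ∧
    (r % 9 = 2 ∨ r % 9 = 4 ∨ r % 9 = 5 ∨ r % 9 = 7) ∧ 1 ≤ a ∧ ¬ 3 ∣ a ∧ (r = 2 → 1 < a) ∧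
      Fintype.card F = r ^ a := by
  have e := Agent.S1059.result (F := F) rfl
  have h1 : ¬ p ∣ Fintype.card F := fun k => absurd (big6 h2 ((one_mul _).trans (e.trans (by
    rw [mul_assoc]))) k (one_dvd 6) h.1) (by decide)
  obtain rfl := List.mem_singleton.1 (dvd_cases h2 [3] (h.dvd_chev (L := [2, 6]) (by simp) h1))
  have h4 : ¬ 9 ∣ Fintype.card F ^ 2 - 1 := fun k => not_dvd_of_val h.1
    (e ▸ mul_dvd_mul (k.mul_left _) (nine_dvd h1).2.1)
  obtain ⟨r, _⟩ := CharP.exists F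
  obtain ⟨⟨a, ha⟩, hr, hF⟩ := FiniteField.card F r
  replace hF : Fintype.card F = r ^ a := hF
  rw [hF] at h1 h3 h4
  refine ⟨rfl, r, a, hr, ?_, ha, ?_, ?_, hF⟩
  · have h5 : ¬ 3 ∣ r := fun k => h1 (k.trans (dvd_pow_self _ ha.ne'))
    have h6 : ¬ 9 ∣ r ^ 2 - 1 := fun k => h4 (k.trans (by
      rw [← pow_mul]; exact Nat.pow_sub_one_dvd_pow_sub_one r (dvd_mul_left _ _)))
    have h7 : ∀ s < 9, s = 1 ∨ s = 8 → s ^ 2 % 9 = 1 := by decide
    have h8 := h7 (r % 9) (by omega)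
    rw [← Nat.pow_mod] at h8
    omega
  · rintro ⟨b, rfl⟩
    have := (nine_dvd (q := r ^ b) fun k => h1 (k.trans (pow_dvd_pow _ (by omega)))).2.1
    rw [← pow_mul] at this h4
    exact h4 (by rwa [show 3 * b * 2 = b * 6 by ring])
  · rintro rfl
    by_contra k
    obtain rfl : a = 1 := by omega
    omega

end Cfsg.Lib.KInv.Xs
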