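import Mathlib

/-!
# Valuations of the order formulas of the groups of Lie type at an odd prime
-/

set_option autoImplicit false

namespace Cfsg.Lib.KInv.Xs

open Finset

/-- `|x ^ i - 1|` -/
def Ex (x : ℤ) (i : ℕ) : ℕ := (x ^ i - 1).natAbs

theorem Ex_eq_1' : type_of% @Ex.eq_1 := @Ex.eq_1

/-- `∏_{i = 1}^n |x ^ i - 1|` -/
def Dx (x : ℤ) (n : ℕ) : ℕ := ∏ i ∈ range n, Ex x (i + 1)

theorem Dx_eq_1' : type_of% @Dx.eq_1 := @Dx.eq_1

/-- the order of `x` modulo `p` -/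
noncomputable abbrev ex (p : ℕ) (x : ℤ) : ℕ := orderOf (x : ZMod p)

/-- the valuation of `x ^ e - 1` -/
noncomputable abbrev ax (p : ℕ) (x : ℤ) : ℕ := padicValNat p (Ex x (ex p x))

theorem Ex_nat {q : ℕ} (hq : 1 ≤ q) (i : ℕ) : Ex q i = q ^ i - 1 := by
  rw [Ex, ← Int.natAbs_natCast (q ^ i - 1), Nat.cast_sub (Nat.one_le_pow _ _ hq)]
  simp

theorem Ex_sq (x : ℤ) (i : ℕ) : Ex (x ^ 2) i = Ex x (2 * i) := by rw [Ex, Ex, pow_mul]

theorem Ex_neg_odd (q : ℕ) {i : ℕ} (h : Odd i) : Ex (-q) i = q ^ i + 1 := by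
  rw [Ex, h.neg_pow, ← Int.natAbs_neg, ← Int.natAbs_natCast (q ^ i + 1)]
  congr 1
  push_cast
  ring

theorem Ex_neg_even {q : ℕ} (hq : 1 ≤ q) {i : ℕ} (h : Even i) : Ex (-q) i = q ^ i - 1 := by
  rw [← Ex_nat hq, Ex, Ex, h.neg_pow]

theorem Dx_nat {q : ℕ} (hq : 1 ≤ q) (n : ℕ) : Dx q n = ∏ i ∈ range n, (q ^ (i + 1) - 1) :=
  prod_congr rfl fun _ _ => Ex_nat hq _

theorem Dx_sq {q : ℕ} (hq : 1 ≤ q) (n : ℕ) :
    Dx ((q : ℤ) ^ 2) n = ∏ i ∈ range n, (q ^ (2 * (i + 1)) - 1) :=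
  prod_congr rfl fun _ _ => (Ex_sq _ _).trans (Ex_nat hq _)

theorem Dx_neg {q : ℕ} (hq : 1 ≤ q) (n : ℕ) : Dx (-q) n =
    ∏ i ∈ range n, (if Even i then q ^ (i + 1) + 1 else q ^ (i + 1) - 1) :=
  prod_congr rfl fun i _ => by
    split_ifs with h
    · exact Ex_neg_odd q h.add_one
    · exact Ex_neg_even hq (Nat.not_even_iff_odd.1 h).add_one

theorem Ex_ne_zero {x : ℤ} (hx : 2 ≤ x.natAbs) {i : ℕ} (hi : i ≠ 0) : Ex x i ≠ 0 := fun h => by
  rw [Ex, Int.natAbs_eq_zero, sub_eq_zero] at h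
  have := congrArg Int.natAbs h
  rw [Int.natAbs_pow, Int.natAbs_one, Nat.pow_eq_one] at this
  omega

theorem Dx_ne_zero {x : ℤ} (hx : 2 ≤ x.natAbs) (n : ℕ) : Dx x n ≠ 0 :=
  prod_ne_zero_iff.2 fun _ _ => Ex_ne_zero hx (Nat.succ_ne_zero _)

theorem Dx_succ (x : ℤ) (n : ℕ) : Dx x (n + 1) = Dx x n * Ex x (n + 1) := prod_range_succ _ _

variable {p : ℕ} [hp : Fact p.Prime] {x : ℤ}

theorem dvd_Ex_iff (i : ℕ) : p ∣ Ex x i ↔ ex p x ∣ i := by
  rw [Ex, ← Int.natCast_dvd, ← ZMod.intCast_zmod_eq_zero_iff_dvd, orderOf_dvd_iff_pow_eq_one]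
  push_cast
  exact sub_eq_zero

theorem not_dvd_Ex (h : (p : ℤ) ∣ x) {i : ℕ} (hi : i ≠ 0) : ¬ p ∣ Ex x i := fun e => by
  rw [dvd_Ex_iff, orderOf_dvd_iff_pow_eq_one, (ZMod.intCast_zmod_eq_zero_iff_dvd _ _).2 h,
    zero_pow hi] at e
  exact zero_ne_one e

theorem not_dvd_Dx (h : (p : ℤ) ∣ x) (n : ℕ) : ¬ p ∣ Dx x n := fun e => by
  obtain ⟨i, -, hi⟩ := (hp.out.prime.dvd_finsetProd_iff _).1 e
  exact not_dvd_Ex h i.succ_ne_zero hi

theorem val_factorial_succ (n : ℕ) :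
    padicValNat p (n + 1).factorial = padicValNat p (n + 1) + padicValNat p n.factorial := by
  rw [Nat.factorial_succ, padicValNat.mul n.succ_ne_zero n.factorial_ne_zero]

theorem val_factorial_of_lt {n : ℕ} (h : n < p) : padicValNat p n.factorial = 0 :=
  padicValNat.eq_zero_of_not_dvd (by rw [hp.out.dvd_factorial]; omega)

theorem val_factorial_pos {n : ℕ} (h : p ≤ n) : 1 ≤ padicValNat p n.factorial :=
  one_le_padicValNat_of_dvd n.factorial_ne_zero (hp.out.dvd_factorial.2 h)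

theorem val_le_of_dvd {a b : ℕ} (h : a ∣ b) (hb : b ≠ 0) : padicValNat p a ≤ padicValNat p b :=
  (padicValNat_dvd_iff_le hb).1 (pow_padicValNat_dvd.trans h)

/-- cross characteristic data -/
structure Cr (p : ℕ) (x : ℤ) : Prop where
  odd : p ≠ 2
  nd : ¬ (p : ℤ) ∣ x
  two : 2 ≤ x.natAbs

namespace Cr

variable (h : Cr p x)
include h

theorem three_le : 3 ≤ p := by
  have := hp.out.two_le
  have := h.odd
  omega

theorem e_dvd : ex p x ∣ p - 1 :=
  orderOf_dvd_of_pow_eq_one (ZMod.pow_card_sub_one_eq_one (by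
    rw [Ne, ZMod.intCast_zmod_eq_zero_iff_dvd]; exact h.nd))

theorem e_pos : 0 < ex p x := Nat.pos_of_dvd_of_pos h.e_dvd (by have := h.three_le; omega)

theorem e_lt : ex p x < p := by
  have := h.three_le
  have := Nat.le_of_dvd (by omega) h.e_dvd
  omega

theorem not_dvd_e : ¬ p ∣ ex p x := fun e => (Nat.le_of_dvd h.e_pos e).not_gt h.e_lt

theorem a_pos : 1 ≤ ax p x :=
  one_le_padicValNat_of_dvd (Ex_ne_zero h.two h.e_pos.ne') ((dvd_Ex_iff _).2 dvd_rfl)

theorem val_of_dvd {i : ℕ} (hi : i ≠ 0) (e : ex p x ∣ i) :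
    padicValNat p (Ex x i) = ax p x + padicValNat p i := by
  obtain ⟨j, rfl⟩ := e
  have hj : j ≠ 0 := right_ne_zero_of_mul hi
  have h1 := Int.emultiplicity_pow_sub_pow hp.out (hp.out.odd_of_ne_two h.odd)
    (x := x ^ ex p x) (y := 1) (Int.natCast_dvd.2 ((dvd_Ex_iff _).2 dvd_rfl))
    (fun e => h.nd ((Nat.prime_iff_prime_int.1 hp.out).dvd_of_dvd_pow e)) j
  rw [one_pow, ← pow_mul, ← Int.emultiplicity_natAbs, ← Int.emultiplicity_natAbs, ← Ex, ← Ex,
    ← padicValNat_eq_emultiplicity (Ex_ne_zero h.two hi),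
    ← padicValNat_eq_emultiplicity (Ex_ne_zero h.two h.e_pos.ne'),
    ← padicValNat_eq_emultiplicity hj] at h1
  rw [padicValNat.mul h.e_pos.ne' hj, padicValNat.eq_zero_of_not_dvd h.not_dvd_e, zero_add]
  exact_mod_cast h1

omit h in
theorem val_of_not {i : ℕ} (e : ¬ ex p x ∣ i) : padicValNat p (Ex x i) = 0 :=
  padicValNat.eq_zero_of_not_dvd (mt (dvd_Ex_iff i).1 e)

theorem val {i : ℕ} (hi : i ≠ 0) :
    padicValNat p (Ex x i) = if ex p x ∣ i then ax p x + padicValNat p i else 0 := by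
  split_ifs with e
  exacts [h.val_of_dvd hi e, val_of_not e]

theorem valD (n : ℕ) : padicValNat p (Dx x n) =
    ax p x * (n / ex p x) + padicValNat p (n / ex p x).factorial := by
  induction n with
  | zero => simp [Dx]
  | succ n ih =>
    rw [Dx_succ, padicValNat.mul (Dx_ne_zero h.two n) (Ex_ne_zero h.two n.succ_ne_zero), ih,
      h.val n.succ_ne_zero, Nat.succ_div]
    split_ifs with e
    · have h1 : n + 1 = ex p x * (n / ex p x + 1) := by
        have := Nat.succ_div_of_dvd e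
        rw [← this, Nat.mul_div_cancel' e]
      rw [val_factorial_succ, Nat.succ_eq_add_one]
      conv_lhs => rw [h1, padicValNat.mul h.e_pos.ne' (Nat.succ_ne_zero _),
        padicValNat.eq_zero_of_not_dvd h.not_dvd_e]
      ring
    · simp

theorem valD_of_lt {n : ℕ} (hn : n < p * ex p x) :
    padicValNat p (Dx x n) = ax p x * (n / ex p x) := by
  rw [h.valD, val_factorial_of_lt ((Nat.div_lt_iff_lt_mul h.e_pos).2 hn), add_zero]

theorem four_le_valD {n : ℕ} (hn : p * ex p x ≤ n) : 4 ≤ padicValNat p (Dx x n) := by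
  have h1 := (Nat.le_div_iff_mul_le h.e_pos).2 hn
  have h2 := val_factorial_pos h1
  have h3 := Nat.mul_le_mul h.a_pos (h.three_le.trans h1)
  rw [h.valD]
  omega

theorem sq : Cr p (x ^ 2) :=
  ⟨h.odd, fun e => h.nd ((Nat.prime_iff_prime_int.1 hp.out).dvd_of_dvd_pow e), by
    rw [Int.natAbs_pow]; have := h.two; nlinarith⟩

omit h in
theorem sq_cases : ex p (x ^ 2) = ex p x ∧ Odd (ex p x) ∨ ex p x = 2 * ex p (x ^ 2) := by
  have h1 : ex p (x ^ 2) = ex p x / Nat.gcd (ex p x) 2 := by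
    rw [ex, Int.cast_pow, orderOf_pow' _ two_ne_zero]
  rcases Nat.even_or_odd (ex p x) with e | e
  · rw [h1, Nat.gcd_eq_right e.two_dvd, Nat.mul_div_cancel' e.two_dvd]
    exact .inr rfl
  · rw [h1, Nat.coprime_two_right.2 e, Nat.div_one]
    exact .inl ⟨rfl, e⟩

theorem a_sq : ax p (x ^ 2) = ax p x := by
  rw [ax, Ex_sq, h.val_of_dvd (mul_ne_zero two_ne_zero h.sq.e_pos.ne')
    ((dvd_Ex_iff _).1 (Ex_sq x _ ▸ (dvd_Ex_iff _).2 dvd_rfl)), padicValNat.eq_zero_of_not_dvd,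
    add_zero]
  intro e
  rcases hp.out.dvd_mul.1 e with e | e
  · exact h.odd ((Nat.prime_dvd_prime_iff_eq hp.out Nat.prime_two).1 e)
  · exact h.sq.not_dvd_e e

/-- linear and unitary groups -/
theorem lin_ne {n c : ℕ} (hn : p * ex p x ≤ n) (hc : padicValNat p c = 3) {y : ℕ}
    (hy : ¬ p ∣ y) (e : Nat.gcd n (Ex x 1) * (Ex x 1 * c) = y * Dx x n) : False := by
  have h3 := h.three_le
  have h1 := Ex_ne_zero h.two one_ne_zero
  have hc0 : c ≠ 0 := by rintro rfl; simp at hc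
  have hy0 : y ≠ 0 := by rintro rfl; simp at hy
  have h2 := congrArg (padicValNat p) e
  rw [padicValNat.mul (Nat.gcd_ne_zero_right h1) (mul_ne_zero h1 hc0), padicValNat.mul h1 hc0,
    padicValNat.mul hy0 (Dx_ne_zero h.two n), hc, padicValNat.eq_zero_of_not_dvd hy] at h2
  by_cases e1 : ex p x ∣ 1
  · have ha := h.a_pos
    rw [h.valD, h.val_of_dvd one_ne_zero e1] at h2
    have e2 := (dvd_Ex_iff 1).2 e1
    generalize ax p x = a at h2 ha
    rw [Nat.dvd_one.1 e1, Nat.div_one, padicValNat_one_right] at h2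
    rw [Nat.dvd_one.1 e1, mul_one] at hn
    obtain ⟨m, rfl⟩ : ∃ m, n = m + 1 := ⟨n - 1, by omega⟩
    rw [val_factorial_succ] at h2
    rcases hn.eq_or_lt with e3 | e3
    · rw [← e3, Nat.gcd_eq_left e2, val_factorial_of_lt (n := m) (by omega), e3] at h2
      obtain ⟨k, hk⟩ := hp.out.odd_of_ne_two h.odd
      have : 3 = 2 * (a * k) := by rw [show m = 2 * k by omega] at h2; linarith
      omega
    · have h4 := val_le_of_dvd (p := p) (Nat.gcd_dvd_left (m + 1) (Ex x 1)) m.succ_ne_zero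
      have h5 := val_factorial_pos (p := p) (n := m) (by omega)
      have h6 := Nat.mul_le_mul ha (show 3 ≤ m by omega)
      rw [mul_add] at h2
      omega
  · have := h.four_le_valD hn
    rw [val_of_not e1, padicValNat.eq_zero_of_not_dvd
      fun e => e1 ((dvd_Ex_iff 1).1 (e.trans (Nat.gcd_dvd_right _ _)))] at h2
    omega

/-- orthogonal groups of even dimension -/
theorem orth_ne {m c d y z z' : ℕ} (hm : p * ex p (x ^ 2) ≤ m + 1) (hc : padicValNat p c = 3)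
    (hd : ¬ p ∣ d) (hy : ¬ p ∣ y) (hz : z * z' = Ex (x ^ 2) (m + 1)) (hz' : ¬ (p ∣ z ∧ p ∣ z'))
    (e : d * c = y * z * Dx (x ^ 2) m) : False := by
  have hc0 : c ≠ 0 := by rintro rfl; simp at hc
  have hd0 : d ≠ 0 := by rintro rfl; simp at hd
  have hy0 : y ≠ 0 := by rintro rfl; simp at hy
  have h0 := Ex_ne_zero h.sq.two m.succ_ne_zero
  rw [← hz] at h0
  have h2 := congrArg (padicValNat p) e
  rw [padicValNat.mul hd0 hc0, padicValNat.mul (mul_ne_zero hy0 (left_ne_zero_of_mul h0))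
    (Dx_ne_zero h.sq.two m), padicValNat.mul hy0 (left_ne_zero_of_mul h0), hc,
    padicValNat.eq_zero_of_not_dvd hy, padicValNat.eq_zero_of_not_dvd hd] at h2
  rcases hm.eq_or_lt with e1 | e1
  · by_cases e2 : p ∣ z
    · have h3 := h.sq.four_le_valD hm
      rw [Dx_succ, ← hz, padicValNat.mul (Dx_ne_zero h.sq.two m) h0, padicValNat.mul
        (left_ne_zero_of_mul h0) (right_ne_zero_of_mul h0),
        padicValNat.eq_zero_of_not_dvd fun e => hz' ⟨e2, e⟩] at h3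
      omega
    · obtain ⟨k, hk⟩ := hp.out.odd_of_ne_two h.odd
      have h4 := h.sq.e_pos
      have h3 : m / ex p (x ^ 2) = 2 * k := by
        rw [Nat.div_eq_iff h4]
        generalize ex p (x ^ 2) = t at e1 h4
        have : 2 * k * t + t = m + 1 := by rw [← e1, hk]; ring
        omega
      rw [h.sq.valD_of_lt (by omega), padicValNat.eq_zero_of_not_dvd e2, h3] at h2
      have : 3 = 2 * (ax p (x ^ 2) * k) := by linarith
      omega
  · have := h.sq.four_le_valD (Nat.le_of_lt_succ e1)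
    omega

end Cr

end Cfsg.Lib.KInv.Xs
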